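import Cfsg.Agent.H821.K547.Defs

/-!
# S4547: `D3` from a subgroup of odd index with three swapped pairs (helper689)

* `d3_of_map` : a subgroup of odd index which maps onto `2 ^ 3`;
* `pr X Y` : the stabiliser of the pairs `{X i, Y i}`, `prHom` its homomorphism to `2 ^ n`;
* `card_eq_mul` : orbit counting in subgroups.
-/

set_option autoImplicit false

namespace Cfsg.Agent.H689.K547

open Cfsg Cfsg.Agent.H821.K547 Subgroup

universe u v

/-- the Sylow 2-subgroups of a group with a subgroup of odd index mapping onto `2 ^ n` map onto `2 ^ n` -/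
theorem rk_of_map {S : Type u} [Group S] [Finite S] {T : Type v} [Group T] (e : S ≃* T) {n : ℕ} (M : Subgroup T)
    (hM : ¬ 2 ∣ M.index) (f : M →* Multiplicative (Fin n → ZMod 2)) (hf : Function.Surjective f) (Q : Sylow 2 S) :
    Rk n Q := by
  have hfT : Finite T := Finite.of_equiv S e.toEquiv
  have h2 : Fact (Nat.Prime 2) := ⟨Nat.prime_two⟩
  -- `Q` acts on `T ⧸ M`
  let q : Q →* T := e.toMonoidHom.comp (Q : Subgroup S).subtype
  let act : MulAction Q (T ⧸ M) := MulAction.compHom _ q
  have hsm : ∀ (x : Q) (y : T ⧸ M), x • y = q x • y := fun _ _ => rfl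
  have hcard : ¬ 2 ∣ Nat.card (T ⧸ M) := hM
  obtain ⟨y, hy⟩ := Q.isPGroup'.nonempty_fixed_point_of_prime_not_dvd_card (T ⧸ M) hcard
  obtain ⟨t, rfl⟩ := QuotientGroup.mk_surjective y
  have hmem : ∀ x : Q, t⁻¹ * q x * t ∈ M := by
    intro x
    have h1 : q x • (QuotientGroup.mk t : T ⧸ M) = QuotientGroup.mk t := hy x
    have h3 : (QuotientGroup.mk (q x * t) : T ⧸ M) = QuotientGroup.mk t := h1
    rw [eq_comm, QuotientGroup.eq] at h3
    rwa [mul_assoc]
  let φ : Q →* M :=
    { toFun := fun x => ⟨t⁻¹ * q x * t, hmem x⟩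
      map_one' := Subtype.ext (by
        change t⁻¹ * q 1 * t = 1
        rw [map_one]; group)
      map_mul' := fun x y => Subtype.ext (by
        change t⁻¹ * q (x * y) * t = (t⁻¹ * q x * t) * (t⁻¹ * q y * t)
        rw [map_mul]; group) }
  have hφ : Function.Injective φ := by
    intro x y hxy
    have h1 : t⁻¹ * q x * t = t⁻¹ * q y * t := congrArg Subtype.val hxy
    have h3 : q x = q y := mul_left_cancel (mul_right_cancel h1)
    exact Subtype.ext (e.injective h3)
  refine ⟨f.comp φ, ?_⟩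
  rw [← MonoidHom.range_eq_top]
  have hr : (f.comp φ).range = (φ.range).map f := by
    rw [MonoidHom.range_comp]
  -- the index is odd and a power of two
  have h1 : ((φ.range).map f).index ∣ φ.range.index := Subgroup.index_map_dvd _ hf
  have h3 : ¬ 2 ∣ φ.range.index := by
    intro h4
    have hc1 : Nat.card φ.range = Nat.card Q := Nat.card_congr (φ.ofInjective hφ).symm.toEquiv
    have hc2 := φ.range.card_mul_index
    have hc3 := M.card_mul_index
    have hc4 := (Q : Subgroup S).card_mul_index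
    rw [hc1] at hc2
    have hc5 : Nat.card S = Nat.card T := Nat.card_congr e.toEquiv
    have h5 : (Q : Subgroup S).index = φ.range.index * M.index := by
      have h6 : Nat.card Q * (Q : Subgroup S).index = Nat.card Q * (φ.range.index * M.index) := by
        rw [← mul_assoc, hc2, hc3, ← hc5]
        exact hc4
      exact Nat.eq_of_mul_eq_mul_left Nat.card_pos h6
    exact Q.not_dvd_index (by rw [h5]; exact h4.mul_right _)
  rw [← Subgroup.index_eq_one, hr]
  have h4 : ((φ.range).map f).index ∣ 2 ^ n := by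
    have h5 := ((φ.range).map f).index_dvd_card
    rwa [Nat.card_congr Multiplicative.toAdd, Nat.card_fun, Nat.card_zmod, Nat.card_eq_fintype_card, Fintype.card_fin]
      at h5
  obtain ⟨k, -, hk⟩ := (Nat.dvd_prime_pow Nat.prime_two).1 h4
  rcases Nat.eq_zero_or_pos k with rfl | hk0
  · rw [hk, pow_zero]
  · exact absurd ((dvd_pow_self 2 hk0.ne').trans (hk ▸ h1)) h3

theorem d3_of_map {S : Type u} [Group S] [Finite S] {T : Type v} [Group T] (e : S ≃* T) (M : Subgroup T)
    (hM : ¬ 2 ∣ M.index) (f : M →* Multiplicative (Fin 3 → ZMod 2)) (hf : Function.Surjective f) : D3 S :=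
  rk_of_map e M hM f hf

section

variable {G α : Type*} [Group G] [MulAction G α] {n : ℕ}

/-- the stabiliser of the pairs `{X i, Y i}` -/
def pr (G : Type*) [Group G] [MulAction G α] (X Y : Fin n → α) : Subgroup G where
  carrier := {g | ∀ i, (g • X i = X i ∧ g • Y i = Y i) ∨ (g • X i = Y i ∧ g • Y i = X i)}
  mul_mem' := by
    intro a b ha hb i
    rw [mul_smul, mul_smul]
    rcases ha i with ⟨h1, h2⟩ | ⟨h1, h2⟩ <;> rcases hb i with ⟨h3, h4⟩ | ⟨h3, h4⟩ <;> rw [h3, h4, h1, h2] <;> simp
  one_mem' i := Or.inl ⟨one_smul _ _, one_smul _ _⟩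
  inv_mem' := by
    intro a ha i
    rcases ha i with ⟨h1, h2⟩ | ⟨h1, h2⟩
    · exact Or.inl ⟨by rw [inv_smul_eq_iff, h1], by rw [inv_smul_eq_iff, h2]⟩
    · exact Or.inr ⟨by rw [inv_smul_eq_iff, h2], by rw [inv_smul_eq_iff, h1]⟩

open Classical in
/-- the homomorphism to `2 ^ n` : which pairs are swapped -/
noncomputable def prHom (X Y : Fin n → α) (hXY : ∀ i, X i ≠ Y i) : pr G X Y →* Multiplicative (Fin n → ZMod 2) where
  toFun g := Multiplicative.ofAdd fun i => if (g : G) • X i = X i then 0 else 1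
  map_one' := by
    change Multiplicative.ofAdd _ = Multiplicative.ofAdd _
    congr 1
    funext i
    rw [if_pos (by rw [Subgroup.coe_one, one_smul])]
    rfl
  map_mul' a b := by
    change Multiplicative.ofAdd _ = Multiplicative.ofAdd _
    congr 1
    funext i
    change _ = (if (a : G) • X i = X i then (0 : ZMod 2) else 1) + (if (b : G) • X i = X i then (0 : ZMod 2) else 1)
    rw [Subgroup.coe_mul, mul_smul]
    have hne := hXY i
    rcases a.2 i with ⟨h1, h2⟩ | ⟨h1, h2⟩ <;> rcases b.2 i with ⟨h3, h4⟩ | ⟨h3, h4⟩ <;>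
      simp only [h1, h2, h3, hne.symm, hne, if_true, if_false]
    · rfl
    · rfl
    · rfl
    · decide

open Classical in
theorem prHom_apply {X Y : Fin n → α} (hXY : ∀ i, X i ≠ Y i) (g : pr G X Y) (i : Fin n) :
    (prHom X Y hXY g).toAdd i = if (g : G) • X i = X i then 0 else 1 := rfl

theorem surj_three {X Y : Fin 3 → α} (hXY : ∀ i, X i ≠ Y i) (g : Fin 3 → G) (hg : ∀ i, g i ∈ pr G X Y)
    (h : ∀ i j, g i • X j = X j ↔ i ≠ j) : Function.Surjective (prHom (G := G) X Y hXY) := by
  classical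
  have h1 : ∀ i, prHom X Y hXY ⟨g i, hg i⟩ = Multiplicative.ofAdd (Pi.single i 1) := by
    intro i
    change Multiplicative.ofAdd _ = Multiplicative.ofAdd _
    congr 1
    funext j
    by_cases hij : i = j
    · subst hij
      rw [if_neg (fun h2 => (h i i).1 h2 rfl), Pi.single_eq_same]
    · rw [if_pos ((h i j).2 hij), Pi.single_eq_of_ne (Ne.symm hij)]
  intro t
  have h2 : ∀ s : Fin 3 → ZMod 2, s = (s 0).val • Pi.single (M := fun _ => ZMod 2) 0 1 +
      (s 1).val • Pi.single (M := fun _ => ZMod 2) 1 1 + (s 2).val • Pi.single (M := fun _ => ZMod 2) 2 1 := by decide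
  refine ⟨⟨g 0, hg 0⟩ ^ (t.toAdd 0).val * ⟨g 1, hg 1⟩ ^ (t.toAdd 1).val * ⟨g 2, hg 2⟩ ^ (t.toAdd 2).val, ?_⟩
  rw [map_mul, map_mul, map_pow, map_pow, map_pow, h1, h1, h1]
  exact (h2 t.toAdd).symm

/-- orbit counting in subgroups -/
theorem card_eq_mul [Finite G] (H : Subgroup G) (x : α) (s : Finset α) (h1 : ∀ g ∈ H, g • x ∈ s)
    (h2 : ∀ y ∈ s, ∃ g ∈ H, g • x = y) :
    Nat.card H = s.card * Nat.card ↥(H ⊓ MulAction.stabilizer G x) := by
  have h3 := (MulAction.stabilizer H x).index_mul_card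
  have h4 : (MulAction.stabilizer H x).index = s.card := by
    rw [MulAction.index_stabilizer]
    have h5 : MulAction.orbit H x = (s : Set α) := by
      ext y
      constructor
      · rintro ⟨g, rfl⟩
        exact h1 g g.2
      · intro hy
        obtain ⟨g, hg, hgy⟩ := h2 y hy
        exact ⟨⟨g, hg⟩, hgy⟩
    rw [h5, Set.ncard_coe_finset]
  have h5 : Nat.card (MulAction.stabilizer H x) = Nat.card ↥(H ⊓ MulAction.stabilizer G x) := by
    refine Nat.card_congr ⟨fun g => ⟨(g : H), (g : H).2, g.2⟩, fun g => ⟨⟨g, g.2.1⟩, g.2.2⟩, fun g => rfl, fun g => rfl⟩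
  rw [← h3, h4, h5]

end

end Cfsg.Agent.H689.K547
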